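import Groth.Agent.PerfB.StalkKFlat
import Groth.Agent.PerfB.BCFlat
import Groth.Agent.PerfB.BCSch
import Groth.Agent.Dcoh.KFlatMod
import Groth.Agent.Dcoh.StalkT

/-!
# Tensor products with bounded above complexes of modules flat over the base

`f : X ⟶ Y`, `P` a bounded above complex of `O_X`-modules, termwise flat over `Y`.
* `acyclic_left`, `acyclic_right`: `P ⊗ f^* L` and `f^* L ⊗ P` are acyclic for `L` acyclic on `Y`;
* `quasiIso_left`, `quasiIso_right`: `P ⊗ f^* -` and `f^* - ⊗ P` preserve quasi-isomorphisms.
-/

set_option autoImplicit false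

universe u

open CategoryTheory CategoryTheory.Limits MonoidalCategory HomologicalComplex AlgebraicGeometry

namespace Groth.Agent.Htor.H254.FlatTens

open Groth.Agent.Dcoh.KFlatAbs Groth.Agent.Dcoh.KFlatSingle Groth.Agent.Dcoh.Stalk
  Groth.Agent.PerfB.SkyFun Groth.Agent.PerfB.RingKFlat Groth.Agent.PerfB.StalkKFlat
  Groth.Agent.Fdesc.PullbackStalk Groth.Agent.PerfB.BCFlat Groth.Agent.Dcoh.KFlatMod

section Ring

variable {A B : Type u} [CommRing A] [CommRing B] [Algebra A B] (N : ModuleCat.{u} B)

/-- `L ↦ N ⊗_B (B ⊗_A L)` preserves finite limits for `N` flat over `A`. -/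
lemma preservesFiniteLimits_GN (hN : Module.Flat A ((res A B).obj N)) :
    PreservesFiniteLimits (GN A B N) where
  preservesFiniteLimits J _ _ := by
    let e : GN A B N ⋙ res A B ≅ tensorLeft ((res A B).obj N) :=
      NatIso.ofComponents (fun L => (cbcData A B).e N L) (fun g => (cbcData A B).nat₂ N g)
    have h1 : PreservesFiniteLimits (tensorLeft ((res A B).obj N)) := inferInstance
    have h2 : PreservesLimitsOfShape J (GN A B N ⋙ res A B) := preservesLimitsOfShape_of_natIso e.symm
    have h3 : ReflectsLimitsOfShape J (res A B) := reflectsLimitsOfShape_of_reflectsIsomorphisms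
    exact preservesLimitsOfShape_of_reflects_of_preserves (GN A B N) (res A B)

end Ring

section Sch

variable {X Y : Scheme.{u}} (f : X ⟶ Y)

/-- Flatness of the stalk over the base, in terms of restriction of scalars. -/
lemma flat_res (G : X.Modules) (hG : FlatMod.IsFlatOver f G) (x : X) :
    letI := stalkAlg f x
    Module.Flat (Y.presheaf.stalk (f.base x))
      ((res (Y.presheaf.stalk (f.base x)) (X.presheaf.stalk x)).obj ((stalkF x).obj G)) :=
  hG x

/-- `G ⊗ f^* -` -/
noncomputable abbrev leftF (G : X.Modules) : Y.Modules ⥤ X.Modules :=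
  Scheme.Modules.pullback f ⋙ DCoh.tensorBi.obj G

/-- `f^* - ⊗ G` -/
noncomputable abbrev rightF (G : X.Modules) : Y.Modules ⥤ X.Modules :=
  Scheme.Modules.pullback f ⋙ DCoh.tensorBi.flip.obj G

/-- Stalks of `G ⊗ f^* -`. -/
noncomputable def leftStalk (G : X.Modules) (x : X) :
    letI := stalkAlg f x
    leftF f G ⋙ stalkF x ≅ stalkF (f.base x) ⋙
      GN (Y.presheaf.stalk (f.base x)) (X.presheaf.stalk x) ((stalkF x).obj G) :=
  letI := stalkAlg f x
  Functor.isoWhiskerLeft (Scheme.Modules.pullback f) (tensorBiStalk G x) ≪≫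
    Functor.isoWhiskerRight (stalkPull f x).symm (tensorLeft ((stalkF x).obj G))

/-- Stalks of `f^* - ⊗ G`. -/
noncomputable def rightStalk (G : X.Modules) (x : X) :
    letI := stalkAlg f x
    rightF f G ⋙ stalkF x ≅ stalkF (f.base x) ⋙
      GN (Y.presheaf.stalk (f.base x)) (X.presheaf.stalk x) ((stalkF x).obj G) :=
  letI := stalkAlg f x
  Functor.isoWhiskerLeft (Scheme.Modules.pullback f) (tensorBiFlipStalk G x ≪≫
      Functor.isoWhiskerLeft (stalkF x)
        (BraidedCategory.tensorLeftIsoTensorRight ((stalkF x).obj G)).symm) ≪≫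
    Functor.isoWhiskerRight (stalkPull f x).symm (tensorLeft ((stalkF x).obj G))

lemma preservesFiniteLimits_leftF (G : X.Modules) (hG : FlatMod.IsFlatOver f G) :
    PreservesFiniteLimits (leftF f G) where
  preservesFiniteLimits J _ _ := by
    have : ∀ x : X, PreservesLimitsOfShape J (leftF f G ⋙ stalkF x) := fun x => by
      letI := stalkAlg f x
      have := preservesFiniteLimits_GN ((stalkF x).obj G) (flat_res f G hG x)
      exact preservesLimitsOfShape_of_natIso (leftStalk f G x).symm
    exact preservesLimitsOfShape_of_jointly (jointlyReflectIsos X) _ J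

lemma preservesFiniteLimits_rightF (G : X.Modules) (hG : FlatMod.IsFlatOver f G) :
    PreservesFiniteLimits (rightF f G) where
  preservesFiniteLimits J _ _ := by
    have : ∀ x : X, PreservesLimitsOfShape J (rightF f G ⋙ stalkF x) := fun x => by
      letI := stalkAlg f x
      have := preservesFiniteLimits_GN ((stalkF x).obj G) (flat_res f G hG x)
      exact preservesLimitsOfShape_of_natIso (rightStalk f G x).symm
    exact preservesLimitsOfShape_of_jointly (jointlyReflectIsos X) _ J

instance (G : X.Modules) : PreservesFiniteColimits (leftF f G) := by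
  have : PreservesFiniteColimits (Scheme.Modules.pullback f) := inferInstance
  infer_instance

instance (G : X.Modules) : PreservesFiniteColimits (rightF f G) := by
  have : PreservesFiniteColimits (Scheme.Modules.pullback f) := inferInstance
  infer_instance

lemma preservesHomology_leftF (G : X.Modules) (hG : FlatMod.IsFlatOver f G) :
    (leftF f G).PreservesHomology := by
  have := preservesFiniteLimits_leftF f G hG
  infer_instance

lemma preservesHomology_rightF (G : X.Modules) (hG : FlatMod.IsFlatOver f G) :
    (rightF f G).PreservesHomology := by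
  have := preservesFiniteLimits_rightF f G hG
  infer_instance

/-- `(L, G) ↦ f^* L ⊗ G` -/
noncomputable abbrev biR : Y.Modules ⥤ X.Modules ⥤ X.Modules :=
  Scheme.Modules.pullback f ⋙ DCoh.tensorBi

instance : (biR f).Additive := inferInstanceAs (Scheme.Modules.pullback f ⋙ DCoh.tensorBi).Additive

instance (L : Y.Modules) : ((biR f).obj L).Additive :=
  inferInstanceAs (DCoh.tensorBi.obj ((Scheme.Modules.pullback f).obj L)).Additive

instance (L : Y.Modules) : PreservesColimitsOfSize.{0, 0} ((biR f).obj L) :=
  inferInstanceAs (PreservesColimitsOfSize.{0, 0} (DCoh.tensorBi.obj ((Scheme.Modules.pullback f).obj L)))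

variable {f}

/-- `P` is K-flat relative to `(L, G) ↦ f^* L ⊗ G`. -/
theorem kfl_biR (P : CochainComplex X.Modules ℤ) (b : ℤ) (hb : ∀ i : ℤ, b < i → IsZero (P.X i))
    (hfl : ∀ i : ℤ, FlatMod.IsFlatOver f (P.X i)) : KFl (biR f) P := by
  have : P.IsStrictlyLE b := by
    rw [CochainComplex.isStrictlyLE_iff]
    exact hb
  exact Groth.Agent.Dcoh.KFlatBdd.kfl_of_isStrictlyLE P b
    (fun n => preservesHomology_rightF f (P.X n) (hfl n))

end Sch

end Groth.Agent.Htor.H254.FlatTens
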