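import Groth.Agent.Htor.H254.FlatTens
import Groth.Agent.PerfC.DTens
import Groth.Agent.PerfC.LpullTens
import Groth.Agent.S1118

/-!
# Tensor products with bounded above complexes of modules flat over the base: derived category

`f : X ⟶ Y`, `P` a bounded above complex of `O_X`-modules, termwise flat over `Y`, `L` any complex on `Y`.
* `acyclic_right`, `acyclic_left`: `f^* L ⊗ P` and `P ⊗ f^* L` are acyclic if `L` is;
* `quasiIso_right`, `quasiIso_left`: `f^* - ⊗ P` and `P ⊗ f^* -` preserve quasi-isomorphisms;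
* `nonempty_iso_left`: `P ⊗ᴸ Lf^* L ≅ P ⊗ f^* L`, `nonempty_iso_right`: `Lf^* L ⊗ᴸ P ≅ f^* L ⊗ P`;
* `nonempty_proj`: `Rf_* (P ⊗ f^* L) ≅ Rf_* P ⊗ᴸ L` for `f` qcqs, `P` and `L` with quasi-coherent cohomology.
-/

set_option autoImplicit false

universe u

open CategoryTheory CategoryTheory.Limits MonoidalCategory HomologicalComplex AlgebraicGeometry

attribute [local instance] HasDerivedCategory.standard

namespace Groth.Agent.Htor.H254.FlatTensD

open Groth.Agent.Dcoh.KFlatAbs Groth.Agent.Htor.H254.FlatTens Groth.Agent.PerfC.DTens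
  Groth.Agent.PerfC.TensFlip

/-- `f^*` on complexes. -/
noncomputable abbrev pullCx {X Y : Scheme.{u}} (f : X ⟶ Y) :
    CochainComplex Y.Modules ℤ ⥤ CochainComplex X.Modules ℤ :=
  (Scheme.Modules.pullback f).mapHomologicalComplex (ComplexShape.up ℤ)

variable {X Y : Scheme.{u}} {f : X ⟶ Y}
  (P : CochainComplex X.Modules ℤ) (b : ℤ) (hb : ∀ i : ℤ, b < i → IsZero (P.X i))
  (hfl : ∀ i : ℤ, FlatMod.IsFlatOver f (P.X i))

include hb hfl

theorem acyclic_right (L : CochainComplex Y.Modules ℤ) (hL : L.Acyclic) :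
    ((DCoh.tensorCx.obj ((pullCx f).obj L)).obj P).Acyclic :=
  kfl_biR P b hb hfl L hL

theorem acyclic_left (L : CochainComplex Y.Modules ℤ) (hL : L.Acyclic) :
    ((DCoh.tensorCx.obj P).obj ((pullCx f).obj L)).Acyclic :=
  Groth.Agent.Dcoh.KFlatSingle.acyclic_of_iso (swapIso ((pullCx f).obj L) P)
    (acyclic_right P b hb hfl L hL)

theorem quasiIso_right {K L : CochainComplex Y.Modules ℤ} (u : K ⟶ L) [QuasiIso u] :
    QuasiIso ((DCoh.tensorCx.map ((pullCx f).map u)).app P) :=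
  (kfl_biR P b hb hfl).quasiIso u

theorem quasiIso_left {K L : CochainComplex Y.Modules ℤ} (u : K ⟶ L) [QuasiIso u] :
    QuasiIso ((DCoh.tensorCx.obj P).map ((pullCx f).map u)) := by
  have h1 := quasiIso_right P b hb hfl u
  have h2 := NatIso.naturality_1 (tensorCxFlip.app P) ((pullCx f).map u)
  change (tensorCxFlip.app P).inv.app _ ≫ (DCoh.tensorCx.map ((pullCx f).map u)).app P ≫
    (tensorCxFlip.app P).hom.app _ = (DCoh.tensorCx.obj P).map ((pullCx f).map u) at h2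
  rw [← h2]
  infer_instance

/-- `P ⊗ᴸ Lf^* L ≅ P ⊗ f^* L`. -/
theorem nonempty_iso_left (L : CochainComplex Y.Modules ℤ) [DCoh.HasLpull f] :
    Nonempty (((LTX X).obj (DerivedCategory.Q.obj P)).obj ((DCoh.Lpull f).obj (DerivedCategory.Q.obj L)) ≅
      DerivedCategory.Q.obj ((DCoh.tensorCx.obj P).obj ((pullCx f).obj L))) := by
  obtain ⟨K, r, hK, hr⟩ := hasRes Y L
  have i1 : IsIso (DerivedCategory.Q.map r) := (DerivedCategory.isIso_Q_map_iff_quasiIso _ _).2 hr
  have hK' : DCoh.IsKFlat ((pullCx f).obj K) := Groth.Agent.PerfB.StalkKFlat.isKFlat_pullback f K hK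
  have h1 := quasiIso_left P b hb hfl r
  have i2 : IsIso (DerivedCategory.Q.map ((DCoh.tensorCx.obj P).map ((pullCx f).map r))) :=
    (DerivedCategory.isIso_Q_map_iff_quasiIso _ _).2 h1
  exact ⟨((LTX X).obj (DerivedCategory.Q.obj P)).mapIso
    ((DCoh.Lpull f).mapIso (asIso (DerivedCategory.Q.map r)).symm ≪≫
      Groth.Agent.Dcoh.DerPull.lpullIso f K hK) ≪≫
    κIso' P ((pullCx f).obj K) hK' ≪≫
    asIso (DerivedCategory.Q.map ((DCoh.tensorCx.obj P).map ((pullCx f).map r)))⟩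

/-- `Lf^* L ⊗ᴸ P ≅ f^* L ⊗ P`. -/
theorem nonempty_iso_right (L : CochainComplex Y.Modules ℤ) [DCoh.HasLpull f] :
    Nonempty (((LTX X).obj ((DCoh.Lpull f).obj (DerivedCategory.Q.obj L))).obj (DerivedCategory.Q.obj P) ≅
      DerivedCategory.Q.obj ((DCoh.tensorCx.obj ((pullCx f).obj L)).obj P)) := by
  obtain ⟨K, r, hK, hr⟩ := hasRes Y L
  have i1 : IsIso (DerivedCategory.Q.map r) := (DerivedCategory.isIso_Q_map_iff_quasiIso _ _).2 hr
  have hK' : DCoh.IsKFlat ((pullCx f).obj K) := Groth.Agent.PerfB.StalkKFlat.isKFlat_pullback f K hK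
  have h1 := quasiIso_right P b hb hfl r
  have i2 : IsIso (DerivedCategory.Q.map ((DCoh.tensorCx.map ((pullCx f).map r)).app P)) :=
    (DerivedCategory.isIso_Q_map_iff_quasiIso _ _).2 h1
  exact ⟨((LTX X).flip.obj (DerivedCategory.Q.obj P)).mapIso
    ((DCoh.Lpull f).mapIso (asIso (DerivedCategory.Q.map r)).symm ≪≫
      Groth.Agent.Dcoh.DerPull.lpullIso f K hK) ≪≫
    κIso ((pullCx f).obj K) P hK' ≪≫
    asIso (DerivedCategory.Q.map ((DCoh.tensorCx.map ((pullCx f).map r)).app P))⟩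

/-- **Projection formula** `Rf_* (P ⊗ f^* L) ≅ Rf_* P ⊗ᴸ L`. -/
theorem nonempty_proj [QuasiCompact f] [QuasiSeparated f] [DCoh.HasRpush f]
    (hP : DCoh.IsQCohD (DerivedCategory.Q.obj P)) (L : CochainComplex Y.Modules ℤ)
    (hL : DCoh.IsQCohD (DerivedCategory.Q.obj L)) :
    Nonempty ((DCoh.Rpush f).obj (DerivedCategory.Q.obj ((DCoh.tensorCx.obj P).obj ((pullCx f).obj L))) ≅
      ((LTX Y).obj ((DCoh.Rpush f).obj (DerivedCategory.Q.obj P))).obj (DerivedCategory.Q.obj L)) := by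
  have := Groth.Agent.Dcoh.DerPull.hasLpull f
  have h := Groth.Agent.S1118.isIso_theta_app f (DerivedCategory.Q.obj P) hP (DerivedCategory.Q.obj L) hL
  obtain ⟨e⟩ := nonempty_iso_left P b hb hfl L
  exact ⟨(DCoh.Rpush f).mapIso e.symm ≪≫
    (@asIso _ _ _ _ ((Groth.Agent.PerfC.LpullTens.theta f (DerivedCategory.Q.obj P)).app
      (DerivedCategory.Q.obj L)) h).symm⟩

end Groth.Agent.Htor.H254.FlatTensD
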