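import Groth.Agent.CycA.TorRestr

/-!
# Base change for Tor under Tor-independence

`Tor^B_n(L, B ⊗_A N) ≅ Tor^A_n(L, N)` for a `B`-module `L` and an `A`-module `N` with
`Tor^A_q(N, B) = 0` for `q ≥ 1`, as semilinear bijections.
-/

universe u

open TensorProduct

namespace Groth.Agent.Htor.H254.TorBaseChange

open Groth.Agent.CycA.TorBasic Groth.Agent.CycA.TorShift Groth.Agent.CycA.TorFin
  Groth.Agent.CycA.TorRestr

variable {A : Type u} [CommRing A] (B : Type u) [CommRing B] [Algebra A B]
  (L : Type u) [AddCommGroup L] [Module A L] [Module B L] [IsScalarTower A B L]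

/-- Injectivity after base change from the vanishing of `Tor_1`. -/
theorem baseChange_injective_of_tor_one {K P N : Type u} [AddCommGroup K] [Module A K]
    [AddCommGroup P] [Module A P] [AddCommGroup N] [Module A N] [Module.Flat A P]
    (f : K →ₗ[A] P) (g : P →ₗ[A] N) (hf : Function.Injective f)
    (h : Function.Exact f g) (hg : Function.Surjective g)
    (hN : Subsingleton (DRing.Tor A 1 N B)) : Function.Injective (f.baseChange B) := by
  obtain ⟨e⟩ := shiftL_one f g hf h hg B
  have hs : Subsingleton (LinearMap.ker (LinearMap.rTensor B f)) := e.symm.toEquiv.subsingleton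
  have h1 : Function.Injective (LinearMap.rTensor B f) := by
    rw [← LinearMap.ker_eq_bot]
    exact (Submodule.subsingleton_iff_eq_bot).1 hs
  have h2 : Function.Injective (LinearMap.lTensor B f) :=
    (LinearMap.lTensor_inj_iff_rTensor_inj B f).2 h1
  exact h2

/-- Right exactness of base change. -/
theorem baseChange_exact_of_surjective {M₁ M₂ M₃ : Type u} [AddCommGroup M₁] [Module A M₁]
    [AddCommGroup M₂] [Module A M₂] [AddCommGroup M₃] [Module A M₃] {f : M₁ →ₗ[A] M₂}
    {g : M₂ →ₗ[A] M₃} (h : Function.Exact f g) (hg : Function.Surjective g) :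
    Function.Exact (f.baseChange B) (g.baseChange B) :=
  lTensor_exact B h hg

/-- `Tor^B_n(L, B ⊗_A N) ≅ Tor^A_n(L, N)` when `N` and `B` are Tor-independent over `A`. -/
theorem semi_tor_of_tor_vanishing (n : ℕ) : ∀ (N : Type u) [AddCommGroup N] [Module A N],
    (∀ q : ℕ, 0 < q → Subsingleton (DRing.Tor A q N B)) →
    Semi A B (DRing.Tor B n L (B ⊗[A] N)) (DRing.Tor A n L N) := by
  induction n with
  | zero =>
    intro N _ _ _
    have h : Semi A B (L ⊗[B] (B ⊗[A] N)) (L ⊗[A] N) :=
      ⟨(AlgebraTensorModule.cancelBaseChange A B B L N).toAddEquiv, fun a x => by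
        show (AlgebraTensorModule.cancelBaseChange A B B L N) (algebraMap A B a • x) =
          a • (AlgebraTensorModule.cancelBaseChange A B B L N) x
        rw [map_smul, algebraMap_smul]⟩
    exact h.congr (zeroEquiv B L (B ⊗[A] N)) (zeroEquiv A L N).symm
  | succ n ih =>
    intro N _ _ hN
    obtain ⟨K, P, _, _, _, _, f, g, _, hf, h, hg⟩ := exists_free_cover (A := A) N
    have hfB : Function.Injective (f.baseChange B) :=
      baseChange_injective_of_tor_one B f g hf h hg (hN 1 one_pos)
    cases n with
    | zero =>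
      obtain ⟨e1⟩ := shiftR_one f g hf h hg L
      obtain ⟨e2⟩ := shiftR_one (f.baseChange B) (g.baseChange B)
        hfB (baseChange_exact_of_surjective B h hg) (baseChange_surjective B hg) L
      exact (semi_ker B L f).congr e2 e1.symm
    | succ n =>
      have hK : ∀ q : ℕ, 0 < q → Subsingleton (DRing.Tor A q K B) := by
        intro q hq
        obtain ⟨q, rfl⟩ : ∃ r, q = r + 1 := ⟨q - 1, by omega⟩
        obtain ⟨e⟩ := shiftL f g hf h hg q B
        have := hN (q + 2) (by omega)
        exact e.symm.toEquiv.subsingleton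
      obtain ⟨e1⟩ := shiftR f g hf h hg n L
      obtain ⟨e2⟩ := shiftR (f.baseChange B) (g.baseChange B)
        hfB (baseChange_exact_of_surjective B h hg) (baseChange_surjective B hg) n L
      exact (ih K hK).congr e2 e1.symm

/-- Base change for `Tor`, in the form of a semilinear bijection. -/
theorem exists_semilinear_bijective (N : Type u) [AddCommGroup N] [Module A N]
    (hN : ∀ q : ℕ, 0 < q → Subsingleton (DRing.Tor A q N B)) (n : ℕ) :
    ∃ φ : DRing.Tor A n N L →ₛₗ[algebraMap A B] DRing.Tor B n (B ⊗[A] N) L,
      Function.Bijective φ := by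
  obtain ⟨e, he⟩ := semi_tor_of_tor_vanishing B L n N hN
  obtain ⟨c⟩ := comm (A := A) n N L
  obtain ⟨c'⟩ := comm (A := B) n L (B ⊗[A] N)
  have he' : ∀ (a : A) (y : DRing.Tor A n L N), e.symm (a • y) = algebraMap A B a • e.symm y := by
    intro a y
    apply e.injective
    rw [he]; simp
  refine ⟨{ toFun := fun x => c' (e.symm (c x))
            map_add' := fun x y => by simp
            map_smul' := fun a x => by
              rw [map_smul, he', map_smul] }, ?_⟩
  exact c'.bijective.comp (e.symm.bijective.comp c.bijective)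

end Groth.Agent.Htor.H254.TorBaseChange
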